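import Cfsg.Agent.H340.OddLie
/-!
# Composition factors of classical groups of characteristic three, without `L₃(3)` (helper974)

The composition factor machinery of helper340 (`H340/RingInv`, `SemiUnit`, `FixUnit`) with a restricted base: `Base3 r P`
does not ask for `P (PSL₃(F))`, `|F| = 3`; `P` holds for the composition factors of the units of a semisimple ring without
simple factor `M₃(𝔽₃)`, and for the unitary group of a semisimple ring with involution without pair of exchanged factors
`M₃(𝔽₃)`.
-/

set_option autoImplicit false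
set_option linter.unusedSectionVars false
set_option maxHeartbeats 400000

namespace Cfsg.Agent.H974

open Subgroup Cfsg Cfsg.Agent.BpLin QuadraticMap Cfsg.Agent.H340
open Cfsg.Agent.LieClassical.OrthCore Cfsg.Agent.LieClassical.OrthTrans Cfsg.Agent.LieClassical.OrthSimple
open Cfsg.Agent.ClassicalGeometry.SympBasic Cfsg.Agent.ClassicalGeometry.SympAutSemi
  Cfsg.Agent.ClassicalGeometry.SympIso
open scoped MatrixGroups Matrix commutatorElement

universe u

/-- The classical simple groups in characteristic `r`, except `PSL₃(F)` with `|F| = 3`, satisfy `P`. -/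
structure Base3 (r : ℕ) (P : ∀ (S : Type u) [Group S], Prop) : Prop where
  psl : ∀ (F : Type) [Field F] [Finite F] [CharP F r] (n : ℕ),
    ¬ (n = 3 ∧ Nat.card F = 3) →
    IsSimpleGroup (Matrix.ProjectiveSpecialLinearGroup (Fin n) F) → ∀ (S : Type u) [Group S],
    Nonempty (S ≃* Matrix.ProjectiveSpecialLinearGroup (Fin n) F) → P S
  psu : ∀ (F : Type) [Field F] [Fintype F] [CharP F r] (n q : ℕ), Fintype.card F = q ^ 2 → 3 ≤ n →
    IsSimpleGroup (PSU n F q) → ∀ (S : Type u) [Group S], Nonempty (S ≃* PSU n F q) → P S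
  psp : ∀ (F : Type) [Field F] [Finite F] [CharP F r] (m : ℕ), 2 ≤ m → IsSimpleGroup (PSp m F) →
    ∀ (S : Type u) [Group S], Nonempty (S ≃* PSp m F) → P S
  alt : r = 2 → ∀ (S : Type u) [Group S], Nonempty (S ≃* alternatingGroup (Fin 6)) → P S
  orth : ∀ (F V : Type) [Field F] [Finite F] [CharP F r] [AddCommGroup V] [Module F V]
    [Module.Finite F V] (Q : QuadraticForm F V), Nondeg Q → 5 ≤ Module.finrank F V →
    IsSimpleGroup (E Q ⧸ center ↥(E Q)) → ∀ (S : Type u) [Group S],
    Nonempty (S ≃* (E Q ⧸ center ↥(E Q))) → P S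

variable {r : ℕ} {P : ∀ (S : Type u) [Group S], Prop}

section Linear

variable {F : Type} [Field F] [Finite F] [CharP F r]

theorem cf_sl (hP : Base3 r P) (n : ℕ) (h33 : ¬ (n = 3 ∧ Nat.card F = 3)) : CF P (Matrix.SpecialLinearGroup (Fin n) F) := by
  rcases Nat.lt_or_ge n 2 with hn | hn
  · apply CF.of_solvable
    have : Subsingleton (Fin n) := by
      have : n = 0 ∨ n = 1 := by omega
      rcases this with rfl | rfl <;> infer_instance
    have : Subsingleton (Matrix.SpecialLinearGroup (Fin n) F) := inferInstance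
    infer_instance
  · by_cases hs : IsSimpleGroup (Matrix.ProjectiveSpecialLinearGroup (Fin n) F)
    · exact CF.of_central (Z := center _) le_rfl (CF.of_simple (hP.psl F n h33 hs))
    · rcases Nat.eq_or_lt_of_le hn with rfl | hn
      · by_cases h : 4 ≤ Nat.card F
        · exact absurd (Matrix.ProjectiveSpecialLinearGroup.rank_two_simple h) hs
        · exact CF.of_solvable (isSolvable_sl_two h)
      · exact absurd (LieClassical.SLGen.psl_isSimpleGroup (by rw [Fintype.card_fin]; exact hn)) hs

theorem cf_gl (hP : Base3 r P) (n : ℕ) (h33 : ¬ (n = 3 ∧ Nat.card F = 3)) : CF P (GL (Fin n) F) := by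
  refine CF.of_hom_comm (Matrix.GeneralLinearGroup.det (n := Fin n) (R := F)) ?_
  rw [← range_toGL n]
  exact (cf_sl hP n h33).congr (MonoidHom.ofInjective (Matrix.SpecialLinearGroup.toGL_injective))

end Linear

section Unitary

variable {F : Type} [Field F] [Fintype F] [CharP F r] {q : ℕ}

theorem cf_su (hP : Base3 r P) (hF : Fintype.card F = q ^ 2) (n : ℕ) : CF P ↥(SU n F q) := by
  rcases Nat.lt_or_ge n 2 with hn | hn
  · apply CF.of_solvable
    have : Subsingleton (Fin n) := by
      have : n = 0 ∨ n = 1 := by omega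
      rcases this with rfl | rfl <;> infer_instance
    have : Subsingleton (Matrix.SpecialLinearGroup (Fin n) F) := inferInstance
    have : Subsingleton ↥(SU n F q) := inferInstance
    infer_instance
  · rcases Nat.eq_or_lt_of_le hn with rfl | hn
    · obtain ⟨_, _, _, _, θ, -⟩ := Phan.exists_model hF
      exact (cf_sl (F := Phan.fixedField hF) hP 2 (by omega)).congr θ
    · by_cases h : n = 3 ∧ q = 2
      · obtain ⟨rfl, rfl⟩ := h
        have h1 := (S0282.result (F := F) hF).2
        exact CF.of_central (Z := center _) le_rfl (CF.of_solvable h1)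
      · have h1 := S0283.result hF n hn h
        exact CF.of_central (Z := center _) le_rfl (CF.of_simple (hP.psu F n q hF hn h1))

theorem cf_gu (hP : Base3 r P) (hF : Fintype.card F = q ^ 2) (n : ℕ) : CF P ↥(GU n F q) := by
  refine CF.of_hom_comm ((Matrix.GeneralLinearGroup.det (n := Fin n) (R := F)).comp (GU n F q).subtype) ?_
  have hinj : Function.Injective (suToGU n F q) := by
    intro a b hab
    apply Subtype.ext
    apply Subtype.ext
    rw [← coe_suToGU, ← coe_suToGU, hab]
  have hr : (suToGU n F q).range =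
      ((Matrix.GeneralLinearGroup.det (n := Fin n) (R := F)).comp (GU n F q).subtype).ker := by
    ext A
    constructor
    · rintro ⟨g, rfl⟩
      rw [MonoidHom.mem_ker]
      apply Units.ext
      change Matrix.det ((suToGU n F q g : GL (Fin n) F) : Matrix (Fin n) (Fin n) F) = 1
      rw [coe_suToGU]
      exact g.1.2
    · intro h
      rw [MonoidHom.mem_ker] at h
      have h1 : Matrix.det ((A : GL (Fin n) F) : Matrix (Fin n) (Fin n) F) = 1 := congrArg Units.val h
      refine ⟨⟨⟨((A : GL (Fin n) F) : Matrix (Fin n) (Fin n) F), h1⟩, ?_⟩, ?_⟩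
      · exact A.2
      · apply Subtype.ext
        apply Units.ext
        rw [coe_suToGU]
  rw [← hr]
  exact (cf_su hP hF n).congr (MonoidHom.ofInjective hinj)

end Unitary

section Symp

variable {F : Type} [Field F] [Finite F] [CharP F r]

theorem cf_sp_one (hP : Base3 r P) : CF P ↥(Matrix.symplecticGroup (Fin 1) F) := by
  let e : (Fin 1 ⊕ Fin 1) ≃ Fin 2 := finSumFinEquiv
  let g : ↥(Matrix.symplecticGroup (Fin 1) F) →* Matrix.SpecialLinearGroup (Fin 2) F :=
    { toFun := fun A => ⟨Matrix.reindex e e A.1, by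
        rw [Matrix.det_reindex_self]; exact (S0244.result A.1).1 A.2⟩
      map_one' := by
        apply Subtype.ext
        change Matrix.reindex e e 1 = 1
        simp
      map_mul' := fun A B => by
        apply Subtype.ext
        change Matrix.reindex e e (A.1 * B.1) = Matrix.reindex e e A.1 * Matrix.reindex e e B.1
        simp [Matrix.submatrix_mul_equiv] }
  have hg : Function.Bijective g := by
    constructor
    · intro A B h
      apply Subtype.ext
      exact (Matrix.reindex e e).injective (congrArg Subtype.val h)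
    · intro B
      refine ⟨⟨(Matrix.reindex e e).symm B.1, (S0244.result _).2 ?_⟩, ?_⟩
      · rw [Matrix.reindex_symm, Matrix.det_reindex_self]; exact B.2
      · apply Subtype.ext
        exact (Matrix.reindex e e).apply_symm_apply B.1
  exact (cf_sl (F := F) hP 2 (by omega)).congr (MulEquiv.ofBijective g hg).symm

theorem cf_symplectic (hP : Base3 r P) (m : ℕ) : CF P ↥(Matrix.symplecticGroup (Fin m) F) := by
  have := Fintype.ofFinite F
  rcases Nat.lt_or_ge m 2 with hm | hm
  · interval_cases m
    · apply CF.of_solvable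
      have : Subsingleton (Matrix (Fin 0 ⊕ Fin 0) (Fin 0 ⊕ Fin 0) F) := inferInstance
      have : Subsingleton ↥(Matrix.symplecticGroup (Fin 0) F) := inferInstance
      infer_instance
    · exact cf_sp_one hP
  by_cases hs : IsSimpleGroup (PSp m F)
  · exact CF.of_central (Z := center _) le_rfl (CF.of_simple (hP.psp F m hm hs))
  -- only `Sp_4(2)` remains
  by_cases h : 3 ≤ m ∨ (m = 2 ∧ 3 ≤ Fintype.card F)
  · exfalso
    apply hs
    have hperf := LieClassical.SympPerfect.commutator_eq_top (m := m) (F := F) (by tauto)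
    have hgen : transvGroup m F = ⊤ := Cfsg.Agent.S0765.result m
    refine @IsSimpleGroup.mk _ _ ?_ ?_
    · by_contra hsub
      rw [not_nontrivial_iff_subsingleton] at hsub
      have h1 : center ↥(Matrix.symplecticGroup (Fin m) F) = ⊤ := by
        rw [← QuotientGroup.subsingleton_iff]
        exact hsub
      have h2 : commutator ↥(Matrix.symplecticGroup (Fin m) F) = ⊥ := by
        rw [commutator_def, Subgroup.commutator_eq_bot_iff_le_centralizer]
        intro x _
        have hx : x ∈ center ↥(Matrix.symplecticGroup (Fin m) F) := by rw [h1]; exact mem_top x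
        exact center_le_centralizer _ hx
      rw [hperf] at h2
      have h3 := LieClassical.SympCount.card_symplecticGroup (F := F) m
      have h4 : Nat.card ↥(Matrix.symplecticGroup (Fin m) F) = 1 := by
        rw [← Nat.card_congr (Subgroup.topEquiv (G := ↥(Matrix.symplecticGroup (Fin m) F))).toEquiv, h2]
        exact Subgroup.card_bot
      rw [h4] at h3
      have h5 : (Fintype.card F) ^ (m ^ 2) ∣ 1 := by rw [h3]; exact Dvd.intro _ rfl
      have h6 : 1 < Fintype.card F := Fintype.one_lt_card
      have h7 : (Fintype.card F) ^ (m ^ 2) = 1 := Nat.dvd_one.1 h5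
      have h8 : 1 < (Fintype.card F) ^ (m ^ 2) := Nat.one_lt_pow (by positivity) h6
      omega
    · intro N hN
      have h1 : (N.comap (QuotientGroup.mk' (center ↥(Matrix.symplecticGroup (Fin m) F)))).Normal := hN.comap _
      by_cases hle : N.comap (QuotientGroup.mk' (center ↥(Matrix.symplecticGroup (Fin m) F))) ≤ center _
      · left
        rw [eq_bot_iff]
        intro x hx
        obtain ⟨y, rfl⟩ := QuotientGroup.mk_surjective x
        exact (QuotientGroup.eq_one_iff y).2 (hle hx)
      · right
        rw [eq_top_iff]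
        intro x _
        obtain ⟨y, rfl⟩ := QuotientGroup.mk_surjective x
        have h2 := LieClassical.SympSimple.commutator_le_of_not_le_center hgen _ hle
        rw [hperf] at h2
        exact h2 (mem_top y)
  push Not at h
  have hq : 2 ≤ Fintype.card F := Fintype.one_lt_card
  have hm2 : m = 2 := by omega
  subst hm2
  have hq2 : Fintype.card F = 2 := by have := h.2 rfl; omega
  have hr : r = 2 := by
    have h1 : CharP F 2 := charP_of_card_eq_prime hq2
    exact CharP.eq F ‹CharP F r› h1
  obtain ⟨e⟩ := LieClassical.SpFourTwo.nonempty_equiv_perm hq2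
  refine CF.congr ?_ e.symm
  have hs : IsSimpleGroup (alternatingGroup (Fin 6)) := alternatingGroup.isSimpleGroup (by simp)
  refine CF.of_solvable_quotient (N := alternatingGroup (Fin 6)) (CF.of_simple (hP.alt hr)) ?_
  have hc : (alternatingGroup (Fin 6)).index = 2 := alternatingGroup.index_eq_two
  have : IsCyclic (Equiv.Perm (Fin 6) ⧸ alternatingGroup (Fin 6)) := by
    have : Fact (Nat.Prime 2) := ⟨Nat.prime_two⟩
    exact isCyclic_of_prime_card (p := 2) hc
  infer_instance

end Symp

section Bilin

variable {F V : Type} [Field F] [Finite F] [CharP F r] [AddCommGroup V] [Module F V]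
  {B : LinearMap.BilinForm F V}

theorem cf_bilin (hP : Base3 r P) [Module.Finite F V] (hA : B.IsAlt)
    (hnd : ∀ u, (∀ v, B u v = 0) → u = 0) : CF P ↥(BpCl.Iso (fun u v => B u v)) := by
  obtain ⟨k, e, he⟩ := BpCl.exists_coords hA hnd
  obtain ⟨f⟩ := BpCl.nonempty_symp e he
  exact (cf_symplectic hP k).congr f

end Bilin

section Orth

variable {F V : Type} [Field F] [AddCommGroup V] [Module F V] {Q : QuadraticForm F V}

theorem cf_three (hP : Base3 r P) [Finite F] [CharP F r] (h2 : (2 : F) ≠ 0) :
    CF P ↥(Cfsg.isometryGroup F (Cfsg.quadFormOdd 1 F)) := by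
  have hF : ∃ a : F, a ≠ 0 ∧ a ≠ 1 := by
    refine ⟨-1, neg_ne_zero.2 one_ne_zero, fun h => h2 ?_⟩
    linear_combination -h
  exact CF.of_commutator_le le_rfl ((cf_sl (F := F) hP 2 (by omega)).of_surjective _
    (LieClassical.OrthThreeOmega.psiOmega_surjective hF))

theorem cf_four_plus (hP : Base3 r P) [Finite F] [CharP F r] :
    CF P ↥(Cfsg.isometryGroup F (Cfsg.quadFormPlus 2 F)) := by
  obtain ⟨ε⟩ := LieClassical.OrthFourCommon.exists_isometryGroup_equiv (LieClassical.OrthFourPlus.coord F)
    (Cfsg.quadFormPlus 2 F) (LieClassical.OrthFourPlus.dt F) LieClassical.OrthFourPlus.coord_det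
  refine CF.congr ?_ ε.symm
  refine CF.of_commutator_le LieClassical.OrthFourPlus.commutator_le ?_
  exact ((cf_sl (F := F) hP 2 (by omega)).prod (cf_sl (F := F) hP 2 (by omega))).of_surjective
    (LieClassical.OrthFourPlus.phi.rangeRestrict) (MonoidHom.rangeRestrict_surjective _)

theorem cf_four_minus (hP : Base3 r P) [Finite F] [CharP F r] {a b : F} (hab : GenOrth.Aniso a b) :
    CF P ↥(Cfsg.isometryGroup F (Cfsg.quadFormMinus 1 F a b)) := by
  have : Fact (∀ r : F, r ^ 2 ≠ -b + a * r) := ⟨fun r hr => by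
    have := (hab (-r) 1 (by linear_combination hr)).2
    exact one_ne_zero this⟩
  have hfin : Finite (LieClassical.OrthFourMinus.E F (-b) a) := Finite.of_equiv _ (QuadraticAlgebra.equivProd (-b) a).symm
  have hchar : CharP (LieClassical.OrthFourMinus.E F (-b) a) r := by
    have : Algebra F (LieClassical.OrthFourMinus.E F (-b) a) := inferInstance
    exact charP_of_injective_algebraMap (algebraMap F (LieClassical.OrthFourMinus.E F (-b) a)).injective r
  obtain ⟨ε⟩ := LieClassical.OrthFourCommon.exists_isometryGroup_equiv (LieClassical.OrthFourMinus.coord F (-b) a)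
    (Cfsg.quadFormMinus 1 F a b) (LieClassical.OrthFourMinus.Q (-b) a) (LieClassical.OrthFourMinus.Q_coord a b)
  refine CF.congr ?_ ε.symm
  refine CF.of_commutator_le (LieClassical.OrthFourMinus.commutator_le'
    (LieClassical.OrthFourMinus.exists_eq LieClassical.OrthFourMinus.norm_surjective)) ?_
  exact (cf_sl (F := LieClassical.OrthFourMinus.E F (-b) a) hP 2 (by omega)).of_surjective
    (LieClassical.OrthFourMinus.phi.rangeRestrict) (MonoidHom.rangeRestrict_surjective _)

theorem cf_big (hP : Base3 r P) [Finite F] [CharP F r] [Module.Finite F V] (hQ : Nondeg Q)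
    (hd : 5 ≤ Module.finrank F V) : CF P ↥(O Q) := by
  have hG := LieClassical.OrthFinite.good_of_finite hQ hd
  have hle : E Q ≤ O Q := E_le_O
  have hs : IsSimpleGroup (E Q ⧸ center ↥(E Q)) := good_isSimpleGroup hG
  refine CF.of_commutator_le (N := (E Q).subgroupOf (O Q)) ?_ ?_
  · rw [commutator_def, Subgroup.commutator_le]
    intro x _ y _
    rw [Subgroup.mem_subgroupOf]
    exact hG.commutator_le_E (Subgroup.commutator_mem_commutator x.2 y.2)
  · exact (CF.of_central (Z := center ↥(E Q)) le_rfl (CF.of_simple (hP.orth F V Q hQ hd hs))).congr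
      (Subgroup.subgroupOfEquivOfLe hle).symm

/-- The orthogonal groups of nondegenerate quadratic forms. -/
theorem cf_O (hP : Base3 r P) [Finite F] [CharP F r] [Module.Finite F V] (hQ : Nondeg Q) : CF P ↥(O Q) := by
  by_cases h5 : 5 ≤ Module.finrank F V
  · exact cf_big hP hQ h5
  have hN := GenOrth.normal_form (Module.finrank F V) hQ rfl
  have hlt : Module.finrank F V < 5 := by omega
  generalize hn : Module.finrank F V = n at *
  have h01 : n ≤ 1 → Group.IsSolvable ↥(O Q) := by
    intro hn1
    apply Group.isSolvable_of_comm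
    intro g h
    apply Subtype.ext
    apply LinearEquiv.ext
    intro v
    change g.1 (h.1 v) = h.1 (g.1 v)
    rcases Nat.eq_zero_or_pos n with h0 | h0
    · have : Subsingleton V := Module.finrank_zero_iff.1 (hn.trans h0)
      exact Subsingleton.elim _ _
    · obtain ⟨w, hw0, hw⟩ := finrank_eq_one_iff'.1 (show Module.finrank F V = 1 by omega)
      obtain ⟨s, hs⟩ := hw (g.1 w)
      obtain ⟨t, ht⟩ := hw (h.1 w)
      obtain ⟨c, rfl⟩ := hw v
      rw [map_smul, map_smul, map_smul, map_smul, ← hs, ← ht, map_smul, map_smul, ← hs, ← ht, smul_comm s t]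
  interval_cases n
  · exact CF.of_solvable (h01 (by norm_num))
  · exact CF.of_solvable (h01 (by norm_num))
  · exact CF.of_solvable (BpCl.Plane.isSolvable hQ hn)
  · rcases hN with ⟨k, hk, hs⟩ | ⟨k, hk, -⟩ | ⟨k, hk, -⟩
    · have hk1 : k = 1 := by omega
      subst hk1
      obtain ⟨e⟩ := BpCl.nonempty_of_sim hs
      exact (cf_three hP (BpCl.two_ne_zero_of_odd hQ hs)).congr e
    · omega
    · omega
  · rcases hN with ⟨k, hk, -⟩ | ⟨k, hk, hs⟩ | ⟨k, hk, a, b, hab, hs⟩
    · omega
    · have hk1 : k = 2 := by omega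
      subst hk1
      obtain ⟨e⟩ := BpCl.nonempty_of_sim hs
      exact (cf_four_plus hP).congr e
    · have hk1 : k = 1 := by omega
      subst hk1
      obtain ⟨e⟩ := BpCl.nonempty_of_sim hs
      exact (cf_four_minus hP hab).congr e

end Orth

section Pi

variable {P : ∀ (S : Type u) [Group S], Prop}
variable {ι : Type} [Fintype ι] [DecidableEq ι] {R : ι → Type} [∀ i, Ring (R i)] [∀ i, IsSimpleRing (R i)]
  (s : RInv (∀ i, R i))

/-- **The unitary group of a product of simple rings.** -/
theorem cf_unitary_pi [Finite (∀ i, R i)] (hL : ∀ i j, i ≠ j → s (Pi.single i 1) = Pi.single j 1 → CF P (R i)ˣ)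
    (hU : ∀ i (hi : s (Pi.single i 1) = Pi.single i 1), CF P ↥(s.factor i hi).U) : CF P ↥s.U := by
  have hfin : ∀ i, Finite (R i) := fun i => Finite.of_surjective (fun x : ∀ i, R i => x i)
    (fun a => ⟨Pi.single i a, Pi.single_eq_same i a⟩)
  have : Finite (∀ i, R i)ˣ := inferInstance
  let f : ∀ i, ↥s.U →* (R i)ˣ := fun i => (Units.map (Pi.evalMonoidHom R i)).comp s.U.subtype
  have hf : ∀ i (u : ↥s.U), ((f i u : (R i)ˣ) : R i) = ((u : (∀ i, R i)ˣ) : ∀ i, R i) i := fun _ _ => rfl
  refine CF.of_family (fun i => (f i).rangeRestrict) (fun i => (f i).rangeRestrict_surjective) ?_ ?_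
  · intro i
    obtain ⟨j, hj⟩ := exists_tau s i
    by_cases hij : j = i
    · subst hij
      have hr : (f j).range = (s.factor j hj).U := by
        ext u
        constructor
        · rintro ⟨v, rfl⟩
          have h1 : ((v : (∀ i, R i)ˣ) : ∀ i, R i) * s ((v : (∀ i, R i)ˣ) : ∀ i, R i) = 1 := v.2
          have h2 := congrFun h1 j
          rw [Pi.mul_apply, apply_of_fix s hj] at h2
          exact h2
        · intro hu
          have h1 : (u : R j) * s (Pi.single j (u : R j)) j = 1 := hu
          obtain ⟨w, hw⟩ := exists_mem_U s (v := Pi.single j (u : R j) + (1 - Pi.single j 1)) (by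
            have hs : s (Pi.single j (u : R j) + (1 - Pi.single j 1))
                = s (Pi.single j (u : R j)) + (1 - Pi.single j 1) := by
              have h2 : s (1 - Pi.single j 1) + s (Pi.single j 1) = 1 := by
                rw [← s.add, sub_add_cancel, s.one]
              rw [s.add, eq_sub_of_add_eq h2, hj]
            rw [hs]
            funext k
            by_cases hk : k = j
            · subst hk
              simpa using h1
            · have h3 := single_supp s hj (u : R j) hk
              simp [Pi.single_eq_of_ne hk, h3])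
          refine ⟨w, ?_⟩
          apply Units.ext
          rw [hf, hw]
          simp
      rw [hr]
      exact hU j hj
    · have hr : (f i).range = ⊤ := by
        rw [eq_top_iff]
        intro u _
        have hji : s (Pi.single j 1) = Pi.single i 1 := by rw [← hj, s.inv]
        obtain ⟨w, hw⟩ := exists_mem_U s
          (v := Pi.single i (u : R i) + s (Pi.single i ((u⁻¹ : (R i)ˣ) : R i))
            + (1 - Pi.single i 1 - Pi.single j 1)) (by
            have hs : s (Pi.single i (u : R i) + s (Pi.single i ((u⁻¹ : (R i)ˣ) : R i))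
                + (1 - Pi.single i 1 - Pi.single j 1))
                = s (Pi.single i (u : R i)) + Pi.single i ((u⁻¹ : (R i)ˣ) : R i)
                + (1 - Pi.single i 1 - Pi.single j 1) := by
              have h2 : s (1 - Pi.single i 1 - Pi.single j 1) + s (Pi.single j 1) + s (Pi.single i 1) = 1 := by
                rw [← s.add, sub_add_cancel, ← s.add, sub_add_cancel, s.one]
              have h3 : s (1 - Pi.single i 1 - Pi.single j 1) = 1 - Pi.single i 1 - Pi.single j 1 := by
                rw [hj, hji] at h2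
                rw [eq_sub_iff_add_eq, eq_sub_iff_add_eq, add_right_comm]
                exact h2
              rw [s.add, s.add, s.inv, h3]
            rw [hs]
            funext k
            by_cases hk : k = i
            · subst hk
              have h4 := single_supp s hj ((u⁻¹ : (R k)ˣ) : R k) (Ne.symm hij)
              have h5 := single_supp s hj (u : R k) (Ne.symm hij)
              have h6 : (Pi.single j (1 : R j) : ∀ i, R i) k = 0 := Pi.single_eq_of_ne (Ne.symm hij) _
              simp [h4, h5, h6]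
            · by_cases hkj : k = j
              · subst hkj
                have h6 : (Pi.single i (1 : R i) : ∀ i, R i) k = 0 := Pi.single_eq_of_ne hk _
                have h7 : ∀ m : R i, (Pi.single i m : ∀ i, R i) k = 0 := fun m => Pi.single_eq_of_ne hk _
                have h8 : s (Pi.single i ((u⁻¹ : (R i)ˣ) : R i)) k * s (Pi.single i (u : R i)) k = 1 := by
                  have h9 : s (Pi.single i ((u⁻¹ : (R i)ˣ) : R i)) * s (Pi.single i (u : R i)) = Pi.single k 1 := by
                    rw [← s.mul, ← Pi.single_mul, Units.mul_inv, hj]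
                  have := congrFun h9 k
                  rwa [Pi.mul_apply, Pi.single_eq_same] at this
                simp [h6, h7, h8]
              · have h4 := single_supp s hj ((u⁻¹ : (R i)ˣ) : R i) hkj
                have h5 := single_supp s hj (u : R i) hkj
                have h7 : ∀ m : R i, (Pi.single i m : ∀ i, R i) k = 0 := fun m => Pi.single_eq_of_ne hk _
                have h6 : (Pi.single j (1 : R j) : ∀ i, R i) k = 0 := Pi.single_eq_of_ne hkj _
                simp [h4, h5, h6, h7])
        refine ⟨w, ?_⟩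
        apply Units.ext
        rw [hf, hw]
        have h4 := single_supp s hj ((u⁻¹ : (R i)ˣ) : R i) (Ne.symm hij)
        have h6 : (Pi.single j (1 : R j) : ∀ i, R i) i = 0 := Pi.single_eq_of_ne (Ne.symm hij) _
        simp [h4, h6]
      rw [hr]
      exact (hL i j (Ne.symm hij) hj).congr Subgroup.topEquiv.symm
  · have hk : (⨅ i, ((f i).rangeRestrict).ker) = ⊥ := by
      rw [eq_bot_iff]
      intro u hu
      rw [mem_iInf] at hu
      rw [mem_bot]
      apply Subtype.ext
      apply Units.ext
      funext i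
      have h1 := hu i
      rw [MonoidHom.ker_rangeRestrict, MonoidHom.mem_ker] at h1
      exact congrArg Units.val h1
    rw [hk]
    infer_instance

end Pi

section Matrix

open Matrix
open Cfsg.Agent.ClassicalGeometry.InvolutiveNorm Cfsg.Agent.ClassicalGeometry.HermOrthonormal

variable {R : ∀ (S : Type u) [Group S], Prop}
variable {D : Type} [Field D] {d : ℕ} [NeZero d] (s : RInv (Matrix (Fin d) (Fin d) D))

theorem cf_unitary_second [Fintype D] {r : ℕ} [CharP D r] (hB : Base3 r R)
    (h2 : ∃ z ∈ Subring.center (Matrix (Fin d) (Fin d) D), s z ≠ z) : CF R ↥s.U := by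
  obtain ⟨σ, hσ2, hs⟩ := exists_sigma s
  have hσ : σ ≠ RingHom.id D := by
    rintro rfl
    obtain ⟨z, hz, hz2⟩ := h2
    obtain ⟨c, rfl⟩ := exists_scalar hz
    exact hz2 (hs c)
  obtain ⟨P, hPs, hP⟩ := exists_herm s hσ hσ2 hs
  obtain ⟨Q, hQ⟩ := exists_sqrt hσ hσ2 P hPs
  obtain ⟨q, hq, hσq⟩ := exists_card_sq hσ hσ2
  rw [Nat.card_eq_fintype_card] at hq
  have key : s.U.map (MulAut.conj Q⁻¹).toMonoidHom = GU d D q := by
    have hQ1 : (Q : Matrix (Fin d) (Fin d) D) * ((Q⁻¹ : GL (Fin d) D) : Matrix (Fin d) (Fin d) D) = 1 := Q.mul_inv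
    have hQ2 : ((Q⁻¹ : GL (Fin d) D) : Matrix (Fin d) (Fin d) D) * (Q : Matrix (Fin d) (Fin d) D) = 1 := Q.inv_mul
    have hP1 : (P : Matrix (Fin d) (Fin d) D) * ((P⁻¹ : GL (Fin d) D) : Matrix (Fin d) (Fin d) D) = 1 := P.mul_inv
    have hP2 : ((P⁻¹ : GL (Fin d) D) : Matrix (Fin d) (Fin d) D) * (P : Matrix (Fin d) (Fin d) D) = 1 := P.inv_mul
    have hst : cst σ (Q : Matrix (Fin d) (Fin d) D) * cst σ ((Q⁻¹ : GL (Fin d) D) : Matrix (Fin d) (Fin d) D) = 1 := by
      rw [← cst_mul, hQ2, cst_one]
    have hst' : cst σ ((Q⁻¹ : GL (Fin d) D) : Matrix (Fin d) (Fin d) D) * cst σ (Q : Matrix (Fin d) (Fin d) D) = 1 := by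
      rw [← cst_mul, hQ1, cst_one]
    -- the main computation
    have hmain : ∀ w : Matrix (Fin d) (Fin d) D,
        ((Q : Matrix (Fin d) (Fin d) D) * w * ((Q⁻¹ : GL (Fin d) D) : Matrix (Fin d) (Fin d) D)) *
          s ((Q : Matrix (Fin d) (Fin d) D) * w * ((Q⁻¹ : GL (Fin d) D) : Matrix (Fin d) (Fin d) D)) =
        (Q : Matrix (Fin d) (Fin d) D) * (w * cst σ w) * (cst σ (Q : Matrix (Fin d) (Fin d) D) *
          ((P⁻¹ : GL (Fin d) D) : Matrix (Fin d) (Fin d) D)) := by
      intro w
      rw [hP, hQ, cst_mul, cst_mul]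
      calc (Q : Matrix (Fin d) (Fin d) D) * w * ((Q⁻¹ : GL (Fin d) D) : Matrix (Fin d) (Fin d) D) *
            ((Q : Matrix (Fin d) (Fin d) D) * cst σ (Q : Matrix (Fin d) (Fin d) D) *
            (cst σ ((Q⁻¹ : GL (Fin d) D) : Matrix (Fin d) (Fin d) D) * (cst σ w * cst σ (Q : Matrix (Fin d) (Fin d) D)))
            * ((P⁻¹ : GL (Fin d) D) : Matrix (Fin d) (Fin d) D))
          = (Q : Matrix (Fin d) (Fin d) D) * w * (((Q⁻¹ : GL (Fin d) D) : Matrix (Fin d) (Fin d) D) *
            (Q : Matrix (Fin d) (Fin d) D)) * (cst σ (Q : Matrix (Fin d) (Fin d) D) *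
            cst σ ((Q⁻¹ : GL (Fin d) D) : Matrix (Fin d) (Fin d) D)) * cst σ w *
            (cst σ (Q : Matrix (Fin d) (Fin d) D) * ((P⁻¹ : GL (Fin d) D) : Matrix (Fin d) (Fin d) D)) := by
            simp only [mul_assoc]
        _ = _ := by rw [hQ2, hst, mul_one, mul_one]; simp only [mul_assoc]
    ext w
    rw [mem_GU_iff_cst hq hσq]
    constructor
    · rintro ⟨u, hu, rfl⟩
      have hu1 : (u : Matrix (Fin d) (Fin d) D) * s (u : Matrix (Fin d) (Fin d) D) = 1 := hu
      have hw : ((MulAut.conj Q⁻¹).toMonoidHom u : GL (Fin d) D) = Q⁻¹ * u * Q := by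
        change Q⁻¹ * u * (Q⁻¹)⁻¹ = _
        rw [inv_inv]
      rw [hw]
      set w := Q⁻¹ * u * Q with hwdef
      have hu2 : (u : Matrix (Fin d) (Fin d) D) = (Q : Matrix (Fin d) (Fin d) D) * (w : Matrix (Fin d) (Fin d) D) *
          ((Q⁻¹ : GL (Fin d) D) : Matrix (Fin d) (Fin d) D) := by
        rw [← Units.val_mul, ← Units.val_mul]
        congr 1
        rw [hwdef]; group
      rw [hu2, hmain] at hu1
      calc (w : Matrix (Fin d) (Fin d) D) * cst σ (w : Matrix (Fin d) (Fin d) D)
          = (((Q⁻¹ : GL (Fin d) D) : Matrix (Fin d) (Fin d) D) * (Q : Matrix (Fin d) (Fin d) D)) *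
            ((w : Matrix (Fin d) (Fin d) D) * cst σ (w : Matrix (Fin d) (Fin d) D)) *
            (cst σ (Q : Matrix (Fin d) (Fin d) D) * (((P⁻¹ : GL (Fin d) D) : Matrix (Fin d) (Fin d) D) *
            (P : Matrix (Fin d) (Fin d) D)) * cst σ ((Q⁻¹ : GL (Fin d) D) : Matrix (Fin d) (Fin d) D)) := by
            rw [hQ2, hP2, mul_one, hst, one_mul, mul_one]
        _ = ((Q⁻¹ : GL (Fin d) D) : Matrix (Fin d) (Fin d) D) * ((Q : Matrix (Fin d) (Fin d) D) *
            ((w : Matrix (Fin d) (Fin d) D) * cst σ (w : Matrix (Fin d) (Fin d) D)) *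
            (cst σ (Q : Matrix (Fin d) (Fin d) D) * ((P⁻¹ : GL (Fin d) D) : Matrix (Fin d) (Fin d) D))) *
            ((P : Matrix (Fin d) (Fin d) D) * cst σ ((Q⁻¹ : GL (Fin d) D) : Matrix (Fin d) (Fin d) D)) := by
            simp only [mul_assoc]
        _ = 1 := by
          rw [hu1, mul_one, hQ]
          calc ((Q⁻¹ : GL (Fin d) D) : Matrix (Fin d) (Fin d) D) * ((Q : Matrix (Fin d) (Fin d) D) *
                cst σ (Q : Matrix (Fin d) (Fin d) D) * cst σ ((Q⁻¹ : GL (Fin d) D) : Matrix (Fin d) (Fin d) D))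
              = (((Q⁻¹ : GL (Fin d) D) : Matrix (Fin d) (Fin d) D) * (Q : Matrix (Fin d) (Fin d) D)) *
                (cst σ (Q : Matrix (Fin d) (Fin d) D) *
                cst σ ((Q⁻¹ : GL (Fin d) D) : Matrix (Fin d) (Fin d) D)) := by simp only [mul_assoc]
            _ = 1 := by rw [hQ2, hst, one_mul]
    · intro hw
      refine ⟨Q * w * Q⁻¹, ?_, ?_⟩
      · change ((Q * w * Q⁻¹ : GL (Fin d) D) : Matrix (Fin d) (Fin d) D) *
          s ((Q * w * Q⁻¹ : GL (Fin d) D) : Matrix (Fin d) (Fin d) D) = 1
        rw [Units.val_mul, Units.val_mul, hmain, hw, mul_one, ← mul_assoc, ← hQ, hP1]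
      · change Q⁻¹ * (Q * w * Q⁻¹) * (Q⁻¹)⁻¹ = w
        group
  have e : ↥s.U ≃* ↥(GU d D q) :=
    (s.U.equivMapOfInjective _ (MulAut.conj Q⁻¹).injective).trans (MulEquiv.subgroupCongr key)
  exact (cf_gu hB hq d).congr e.symm

/-- Involutions of the first kind in odd characteristic. -/
theorem cf_unitary_first [Finite D] {r : ℕ} [CharP D r] (hr : r ≠ 2) (hB : Base3 r R)
    (hs : ∀ c, s (Matrix.scalar (Fin d) c) = Matrix.scalar (Fin d) c) : CF R ↥s.U := by
  have h2 : (2 : D) ≠ 0 := by
    intro h
    have h3 : r ∣ 2 := (CharP.cast_eq_zero_iff D r 2).1 (by exact_mod_cast h)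
    rcases (Nat.dvd_prime Nat.prime_two).1 h3 with h4 | h4
    · exact CharP.char_ne_one D r h4
    · exact hr h4
  obtain ⟨P, hPs, hP⟩ := exists_first s hs
  obtain ⟨e⟩ := exists_equiv_first s hP
  refine CF.congr ?_ e.symm
  have hnd : ∀ u, (∀ v, formOf (P : Matrix (Fin d) (Fin d) D) u v = 0) → u = 0 := by
    intro u hu
    have h1 : u ᵥ* (P : Matrix (Fin d) (Fin d) D) = 0 := by
      funext j
      have h3 := hu (Pi.single j 1)
      rw [formOf_apply, Matrix.dotProduct_mulVec, dotProduct_single, mul_one] at h3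
      exact h3
    have h3 : (u ᵥ* (P : Matrix (Fin d) (Fin d) D)) ᵥ* ((P⁻¹ : GL (Fin d) D) : Matrix (Fin d) (Fin d) D) = 0 := by
      rw [h1, Matrix.zero_vecMul]
    rwa [Matrix.vecMul_vecMul, Units.mul_inv, Matrix.vecMul_one] at h3
  have hsw : ∀ x y, formOf (P : Matrix (Fin d) (Fin d) D)ᵀ x y = formOf (P : Matrix (Fin d) (Fin d) D) y x := by
    intro x y
    rw [formOf_apply, formOf_apply, Matrix.mulVec_transpose, dotProduct_comm, Matrix.dotProduct_mulVec]
  rcases hPs with hPs | hPs
  · -- symmetric
    have hsym : ∀ x y, formOf (P : Matrix (Fin d) (Fin d) D) x y = formOf (P : Matrix (Fin d) (Fin d) D) y x := by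
      intro x y; rw [← hsw, hPs]
    let Q : QuadraticForm D (Fin d → D) := (formOf (P : Matrix (Fin d) (Fin d) D)).toQuadraticMap
    have hQ : ∀ x, Q x = formOf (P : Matrix (Fin d) (Fin d) D) x x := fun _ => rfl
    have hpol : ∀ x y, QuadraticMap.polar Q x y = 2 * formOf (P : Matrix (Fin d) (Fin d) D) x y := by
      intro x y
      have h1 : formOf (P : Matrix (Fin d) (Fin d) D) (x + y) (x + y) =
          formOf (P : Matrix (Fin d) (Fin d) D) x x + formOf (P : Matrix (Fin d) (Fin d) D) x y +
          (formOf (P : Matrix (Fin d) (Fin d) D) y x + formOf (P : Matrix (Fin d) (Fin d) D) y y) := by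
        rw [LinearMap.map_add₂, map_add, map_add]
      rw [QuadraticMap.polar, hQ, hQ, hQ, h1, hsym y x]
      ring
    have hQn : LieClassical.OrthCore.Nondeg Q := by
      intro x hx
      apply hnd
      intro y
      have h1 := hx y
      rw [hpol] at h1
      exact (mul_eq_zero.1 h1).resolve_left h2
    have heq : BpCl.Iso (fun u v => formOf (P : Matrix (Fin d) (Fin d) D) u v) = LieClassical.OrthCore.O Q := by
      ext g
      constructor
      · intro h v
        exact h v v
      · intro h x y
        have h' : ∀ v, Q (g v) = Q v := h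
        have h1 : QuadraticMap.polar Q (g x) (g y) = QuadraticMap.polar Q x y := by
          rw [QuadraticMap.polar, QuadraticMap.polar, ← map_add, h', h', h']
        rw [hpol, hpol] at h1
        exact mul_left_cancel₀ h2 h1
    rw [heq]
    exact cf_O hB hQn
  · -- alternating
    refine cf_bilin hB (B := formOf (P : Matrix (Fin d) (Fin d) D)) ?_ hnd
    intro x
    have h1 := hsw x x
    rw [hPs, formOf_apply, formOf_apply, Matrix.neg_mulVec, dotProduct_neg] at h1
    rw [formOf_apply]
    have h3 : 2 * (x ⬝ᵥ (P : Matrix (Fin d) (Fin d) D) *ᵥ x) = 0 := by linear_combination -h1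
    exact (mul_eq_zero.1 h3).resolve_left h2

/-- All involutions of matrix rings in odd characteristic. -/
theorem cf_unitary_matrix [Finite D] {r : ℕ} [CharP D r] (hr : r ≠ 2) (hB : Base3 r R) : CF R ↥s.U := by
  have := Fintype.ofFinite D
  by_cases h : ∃ z ∈ Subring.center (Matrix (Fin d) (Fin d) D), s z ≠ z
  · exact cf_unitary_second s hB h
  · push Not at h
    exact cf_unitary_first s hr hB fun c => h _ (scalar_mem_center c)

end Matrix

section Semisimple

variable {R : ∀ (S : Type u) [Group S], Prop} {r : ℕ}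

theorem cf_unitary_matrix' {D : Type} [DivisionRing D] [Finite D] [CharP D r] {d : ℕ} [NeZero d]
    (hr : r ≠ 2) (hB : Base3 r R) (s : RInv (Matrix (Fin d) (Fin d) D)) : CF R ↥s.U := by
  let _ : Field D := littleWedderburn D
  exact cf_unitary_matrix s hr hB

theorem cf_units_matrix {D : Type} [DivisionRing D] [Finite D] [CharP D r] (hB : Base3 r R) (d : ℕ)
    (h33 : ¬ (d = 3 ∧ Nat.card D = 3)) : CF R (Matrix (Fin d) (Fin d) D)ˣ := by
  let _ : Field D := littleWedderburn D
  exact cf_gl (F := D) hB d h33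

/-- The group of units of a finite semisimple ring without factor `M₃(𝔽₃)`. -/
theorem cf_units (hr : r.Prime) (hB : Base3 r R) (E : Type) [Ring E] [Finite E] [CharP E r] {n : ℕ}
    {D : Fin n → Type} {d : Fin n → ℕ} [∀ i, DivisionRing (D i)] [∀ i, NeZero (d i)]
    (e : E ≃+* ∀ i, Matrix (Fin (d i)) (Fin (d i)) (D i))
    (h33 : ∀ i, ¬ (d i = 3 ∧ Nat.card (D i) = 3)) : CF R Eˣ := by
  have hfin : Finite (∀ i, Matrix (Fin (d i)) (Fin (d i)) (D i)) := Finite.of_equiv E e.toEquiv
  have hfin2 : ∀ i, Finite (Matrix (Fin (d i)) (Fin (d i)) (D i)) := fun i =>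
    Finite.of_surjective (fun x : ∀ i, Matrix (Fin (d i)) (Fin (d i)) (D i) => x i)
      (fun a => ⟨Pi.single i a, by simp⟩)
  have hfin3 : ∀ i, Finite (D i) := fun i =>
    Finite.of_injective (fun c : D i => Matrix.scalar (Fin (d i)) c) (fun a b h => by
      have : Nonempty (Fin (d i)) := ⟨0⟩
      exact Matrix.scalar_inj.mp h)
  have h1 : CF R (∀ i, (Matrix (Fin (d i)) (Fin (d i)) (D i))ˣ) :=
    CF.pi fun i => by
      have := charP_factor hr e i
      exact cf_units_matrix hB (d i) (h33 i)
  exact h1.congr (MulEquiv.piUnits.symm.trans (Units.mapEquiv e.symm.toMulEquiv))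

/-- **The unitary group of a finite semisimple ring with involution, odd characteristic**, no pair of exchanged factors
`M₃(𝔽₃)`. -/
theorem cf_unitary (hr : r.Prime) (hr2 : r ≠ 2) (hB : Base3 r R) {E : Type} [Ring E] [Finite E]
    [CharP E r] (s : RInv E) {n : ℕ} {D : Fin n → Type} {d : Fin n → ℕ} [∀ i, DivisionRing (D i)] [∀ i, NeZero (d i)]
    (e : E ≃+* ∀ i, Matrix (Fin (d i)) (Fin (d i)) (D i))
    (h33 : ∀ i j, i ≠ j → s (e.symm (Pi.single i 1)) = e.symm (Pi.single j 1) → ¬ (d i = 3 ∧ Nat.card (D i) = 3)) :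
    CF R ↥s.U := by
  classical
  have hfin : Finite (∀ i, Matrix (Fin (d i)) (Fin (d i)) (D i)) := Finite.of_equiv E e.toEquiv
  have hfin2 : ∀ i, Finite (Matrix (Fin (d i)) (Fin (d i)) (D i)) := fun i =>
    Finite.of_surjective (fun x : ∀ i, Matrix (Fin (d i)) (Fin (d i)) (D i) => x i)
      (fun a => ⟨Pi.single i a, by simp⟩)
  have hne : ∀ i, Nonempty (Fin (d i)) := fun i => ⟨0⟩
  have hfin3 : ∀ i, Finite (D i) := fun i =>
    Finite.of_injective (fun c : D i => Matrix.scalar (Fin (d i)) c) (fun a b h => Matrix.scalar_inj.mp h)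
  have key : CF R ↥(s.congr e).U := by
    refine cf_unitary_pi (s.congr e) (fun i j hij hj => ?_) fun i hi => ?_
    · have := charP_factor hr e i
      refine cf_units_matrix hB (d i) (h33 i j hij ?_)
      apply e.injective
      rw [e.apply_symm_apply]
      exact hj
    · have := charP_factor hr e i
      exact cf_unitary_matrix' hr2 hB _
  exact key.congr (s.congrU e).symm

end Semisimple

end Cfsg.Agent.H974
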