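import Cfsg.Agent.H974.ClsCorner
/-!
# Fixed points of involutory automorphisms: composition factors or a factor `M₃(𝔽₃)` of the fixed ring (helper974)
-/

set_option autoImplicit false
set_option linter.unusedSectionVars false
set_option maxHeartbeats 400000

namespace Cfsg.Agent.H974

open Subgroup Cfsg Cfsg.Agent.BpLin Cfsg.Agent.H340

universe u

variable {P : ∀ (S : Type u) [Group S], Prop} {r : ℕ} {A : Type} [Ring A]

theorem cf_fixU (hr : r.Prime) (hr2 : r ≠ 2) (hB : Base3 r P) [Finite A] [IsSemisimpleRing A] [CharP A r]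
    (τ : A ≃+* A) (hτ : ∀ a, τ (τ a) = a) : CF P ↥(fixU τ) ∨ ∃ c, BadF τ c := by
  have h1 : IsSemisimpleRing ↥(fixRing τ) := isSemisimpleRing_fixed τ hτ (isUnit_two hr hr2)
  have h2 : CharP ↥(fixRing τ) r := charP_subring _
  obtain ⟨n, D, d, hD, hd, ⟨e⟩⟩ := IsSemisimpleRing.exists_ringEquiv_pi_matrix_divisionRing ↥(fixRing τ)
  by_cases h : ∃ i, d i = 3 ∧ Nat.card (D i) = 3
  · obtain ⟨i, h3, h4⟩ := h
    exact Or.inr ⟨_, badF_of e h3 h4⟩
  · left
    refine (cf_units hr hB ↥(fixRing τ) e fun i hi => h ⟨i, hi⟩).congr (fixUEquiv τ)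

theorem cf_fixUnitary (hr : r.Prime) (hr2 : r ≠ 2) (hB : Base3 r P) [Finite A] [IsSemisimpleRing A] [CharP A r]
    (τ : A ≃+* A) (hτ : ∀ a, τ (τ a) = a) (s : RInv A) (hs : ∀ a, τ (s a) = s (τ a)) :
    CF P ↥(s.U ⊓ fixU τ) ∨ ∃ c, BadF τ c ∧ s c * c = 0 := by
  have h1 : IsSemisimpleRing ↥(fixRing τ) := isSemisimpleRing_fixed τ hτ (isUnit_two hr hr2)
  have h2 : CharP ↥(fixRing τ) r := charP_subring _
  obtain ⟨n, D, d, hD, hd, ⟨e⟩⟩ := IsSemisimpleRing.exists_ringEquiv_pi_matrix_divisionRing ↥(fixRing τ)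
  by_cases h : ∃ i j, i ≠ j ∧ (fixInv τ s hs) (e.symm (Pi.single i 1)) = e.symm (Pi.single j 1) ∧
      (d i = 3 ∧ Nat.card (D i) = 3)
  · obtain ⟨i, j, hij, hsw, h3, h4⟩ := h
    refine Or.inr ⟨_, badF_of e h3 h4, ?_⟩
    have h5 : (fixInv τ s hs) (e.symm (Pi.single i 1)) * e.symm (Pi.single i 1) = 0 := by
      rw [hsw]
      apply e.injective
      rw [map_mul, e.apply_symm_apply, e.apply_symm_apply, map_zero]
      funext k
      by_cases hk : k = i
      · subst hk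
        rw [Pi.mul_apply, Pi.single_eq_of_ne hij, zero_mul, Pi.zero_apply]
      · rw [Pi.mul_apply, Pi.single_eq_of_ne hk, mul_zero, Pi.zero_apply]
    exact congrArg Subtype.val h5
  · left
    have h3 := cf_unitary hr hr2 hB (fixInv τ s hs) e fun i j hij hsw hb => h ⟨i, j, hij, hsw, hb⟩
    have h4 : ((fixInv τ s hs).U.map ((fixU τ).subtype.comp (fixUEquiv τ).toMonoidHom)) = s.U ⊓ fixU τ := by
      ext u
      constructor
      · rintro ⟨v, hv, rfl⟩
        have h5 : (v : ↥(fixRing τ)) * (fixInv τ s hs) v = 1 := hv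
        exact ⟨congrArg Subtype.val h5, (fixUEquiv τ v).2⟩
      · rintro ⟨hu, hu'⟩
        refine ⟨(fixUEquiv τ).symm ⟨u, hu'⟩, ?_, ?_⟩
        · exact Subtype.ext hu
        · change ((fixUEquiv τ ((fixUEquiv τ).symm ⟨u, hu'⟩) : ↥(fixU τ)) : Aˣ) = u
          rw [MulEquiv.apply_symm_apply]
    have hinj : Function.Injective ((fixU τ).subtype.comp (fixUEquiv τ).toMonoidHom) :=
      (fixU τ).subtype_injective.comp (fixUEquiv τ).injective
    exact h3.congr (((fixInv τ s hs).U.equivMapOfInjective _ hinj).trans (MulEquiv.subgroupCongr h4))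

/-- the consequences of a pair of exchanged factors -/
theorem BadF.field_of_swap {F : Type} [Field F] [Algebra F A] {τ : A ≃+* A} {c : A} (h : BadF τ c)
    (hP : PrimeR A) (h2 : IsUnit (2 : A)) (hτ : ∀ a, τ (τ a) = a) (s : RInv A) (h0 : s c * c = 0) :
    Spl τ c ∧ Nat.card F ≤ 3 := by
  have h1 : c ≠ 1 := by
    rintro rfl
    rw [s.one, mul_one] at h0
    exact h.ne_zero h0
  have hs := h.spl hP h2 hτ h1
  exact ⟨hs, h.card_field hs⟩

end Cfsg.Agent.H974
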