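import Cfsg.Agent.H974.ClsPSL
import Cfsg.Agent.H284.SepOrd
/-!
# Classical groups of characteristic three: no component `L₃(3)` in the centralizer of an involutory automorphism, with
four exceptions (helper974)
-/

set_option autoImplicit false
set_option linter.unusedSectionVars false
set_option maxHeartbeats 400000

namespace Cfsg.Agent.H974

open Subgroup Cfsg Cfsg.Agent.BpLin Cfsg.Agent.BpCl QuadraticMap Cfsg.Agent.H340 Cfsg.Agent.H902
  Cfsg.Agent.H902.Names Cfsg.Agent.H284.SepOrd
open Cfsg.Agent.LieClassical.OrthCore Cfsg.Agent.LieClassical.OrthTrans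

universe u

theorem fac_5616 : Nat.factorization 5616 3 = 3 := by
  have h1 : (5616 : ℕ) = 3 ^ 3 * 208 := by norm_num
  rw [h1, Nat.factorization_mul (by norm_num) (by norm_num), Nat.Prime.factorization_pow Nat.prime_three,
    Finsupp.add_apply, Finsupp.single_eq_same, Nat.factorization_eq_zero_of_not_dvd (by norm_num)]

theorem real_5616 {X : Art.Sh} {f : ℕ} (h : Art.Real X 3 f 5616) : X = .L 3 ∧ f = 1 := by
  have h1 := Art.mem_ents h ((Art.P_prime_exp h).trans fac_5616)
  have h2 := Art.val_eq h
  have h3 : ∀ a ∈ Art.ents 3 3, Art.val 3 a = 5616 → a = (.L 3, 1) := by decide +kernel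
  have h4 := h3 _ h1 h2
  exact ⟨congrArg Prod.fst h4, congrArg Prod.snd h4⟩

theorem base3 : Base3.{u} 3 (fun S _ => Nat.card S ≠ 5616) where
  psl F _ _ _ n h33 hs S _ := by
    rintro ⟨e⟩ hc
    have := Fintype.ofFinite F
    rw [Nat.card_congr e.toEquiv] at hc
    have hn : 2 ≤ n := by
      by_contra hn
      have : Subsingleton (Fin n) := by
        have : n = 0 ∨ n = 1 := by omega
        rcases this with rfl | rfl <;> infer_instance
      have : Subsingleton (Matrix.SpecialLinearGroup (Fin n) F) := inferInstance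
      have : Subsingleton (Matrix.ProjectiveSpecialLinearGroup (Fin n) F) :=
        (QuotientGroup.mk'_surjective _).subsingleton
      exact not_nontrivial _ hs.toNontrivial
    obtain ⟨f, hf, hF⟩ := field_pow (F := F) Nat.prime_three
    have hR := psl_real Nat.prime_three hf hF hn (by
      rintro rfl
      by_contra h4
      exact not_simple_sl_two_three (F := F) (by rwa [Nat.card_eq_fintype_card, hF]) hs)
    rw [hc] at hR
    obtain ⟨h1, h2⟩ := real_5616 hR
    injection h1 with h1
    exact h33 ⟨h1, by rw [Nat.card_eq_fintype_card, hF, h2, pow_one]⟩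
  psu F _ _ _ n q hF hn hs S _ := by
    rintro ⟨e⟩ hc
    rw [Nat.card_congr e.toEquiv] at hc
    obtain ⟨f, hf, rfl⟩ := root_pow Nat.prime_three (by norm_num) (field_pow (F := F) Nat.prime_three) hF
    have hR := psu_real Nat.prime_three hf hF hn (by
      rintro ⟨-, h⟩
      have h3 : 3 ∣ 3 ^ f := dvd_pow_self 3 (by omega)
      rw [h] at h3
      omega)
    rw [hc] at hR
    exact absurd (real_5616 hR).1 (by simp)
  psp F _ _ _ m hm hs S _ := by
    rintro ⟨e⟩ hc
    have := Fintype.ofFinite F
    rw [Nat.card_congr e.toEquiv] at hc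
    obtain ⟨f, hf, hF⟩ := field_pow (F := F) Nat.prime_three
    have hR := psp_real Nat.prime_three hf hF hm (fun _ => Nat.le_self_pow (by omega) 3)
    rw [hc] at hR
    exact absurd (real_5616 hR).1 (by simp)
  alt h := absurd h (by norm_num)
  orth F V _ _ _ _ _ _ Q hQ hd hs S _ := by
    rintro ⟨e⟩ hc
    have := Fintype.ofFinite F
    have h1 := card_ge_of_odd (F := F) Nat.prime_three (by norm_num : 3 ≠ 2)
    have hG := LieClassical.OrthFinite.good_of_finite hQ hd
    obtain ⟨f, hf, hF⟩ := field_pow (F := F) Nat.prime_three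
    rcases GenOrth.normal_form (Module.finrank F V) hQ rfl with ⟨k, hk, hS⟩ | ⟨k, hk, hS⟩ | ⟨k, hk, a, b, hab, hS⟩
    · obtain ⟨g⟩ := nonempty_E_equiv hG hS
      rcases Nat.lt_or_ge k 3 with h | h
      · obtain rfl : k = 2 := by omega
        obtain ⟨g'⟩ := S0301.result (F := F) h1.1
        rw [Nat.card_congr ((e.trans g).trans g').toEquiv] at hc
        have hR := psp_real Nat.prime_three hf hF le_rfl (fun _ => Nat.le_self_pow (by omega) 3)
        rw [hc] at hR
        exact absurd (real_5616 hR).1 (by simp)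
      · rw [Nat.card_congr (e.trans g).toEquiv] at hc
        have hR := oodd_real Nat.prime_three hf hF h (by rw [← hF]; exact h1.1)
        rw [hc] at hR
        exact absurd (real_5616 hR).1 (by simp)
    · obtain ⟨g⟩ := nonempty_E_equiv hG hS
      rcases Nat.lt_or_ge k 4 with h | h
      · obtain rfl : k = 3 := by omega
        obtain ⟨g'⟩ := S0302.result (F := F)
        rw [Nat.card_congr ((e.trans g).trans g').toEquiv] at hc
        have hR := psl_real Nat.prime_three hf hF (n := 4) (by omega) (by omega)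
        rw [hc] at hR
        exact absurd (real_5616 hR).1 (by simp)
      · rw [Nat.card_congr (e.trans g).toEquiv] at hc
        have hR := oplus_real Nat.prime_three hf hF h
        rw [hc] at hR
        exact absurd (real_5616 hR).1 (by simp)
    · obtain ⟨g⟩ := nonempty_E_equiv hG hS
      rcases Nat.lt_or_ge k 3 with h | h
      · obtain rfl : k = 2 := by omega
        have : Fact (Nat.Prime 3) := ⟨Nat.prime_three⟩
        have hfin : Finite (GaloisField 3 (2 * f)) := inferInstance
        have hft : Fintype (GaloisField 3 (2 * f)) := Fintype.ofFinite _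
        have hK : Fintype.card (GaloisField 3 (2 * f)) = (3 ^ f) ^ 2 := by
          rw [← Nat.card_eq_fintype_card, GaloisField.card 3 (2 * f) (by omega), ← pow_mul, mul_comm]
        obtain ⟨g'⟩ := S0303.result (F := F) (K := GaloisField 3 (2 * f)) hF hK a b hab
        rw [Nat.card_congr ((e.trans g).trans g').toEquiv] at hc
        have hR := psu_real Nat.prime_three hf hK (n := 4) (by omega) (by omega)
        rw [hc] at hR
        exact absurd (real_5616 hR).1 (by simp)
      · rw [Nat.card_congr (e.trans g).toEquiv] at hc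
        have hR := ominus_real Nat.prime_three hf hF (m := k + 1) (by omega) (a := a) (b := b) hab
        rw [Nat.add_sub_cancel, hc] at hR
        exact absurd (real_5616 hR).1 (by simp)

/-- the transported automorphism -/
theorem fix_congr {X Y : Type*} [Group X] [Group Y] {P : ∀ (S : Type u) [Group S], Prop} (e : X ≃* Y) (x : MulAut X)
    (h : CF P ↥(fixedSubgroup (MulAut.congr e x))) : CF P ↥(fixedSubgroup x) := by
  have h2 : ∀ k, MulAut.congr e x k = e (x (e.symm k)) := fun _ => rfl
  let ε : ↥(fixedSubgroup (MulAut.congr e x)) ≃* ↥(fixedSubgroup x) :=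
    { toFun := fun k => ⟨e.symm k, by
        have h3 : MulAut.congr e x k.1 = k.1 := k.2
        rw [h2] at h3
        change x (e.symm k) = e.symm k
        have h4 := congrArg e.symm h3
        rwa [e.symm_apply_apply] at h4⟩
      invFun := fun k => ⟨e k, by
        have h3 : x k.1 = k.1 := k.2
        change MulAut.congr e x (e k) = e k
        rw [h2, e.symm_apply_apply, h3]⟩
      left_inv := fun k => Subtype.ext (e.apply_symm_apply _)
      right_inv := fun k => Subtype.ext (e.symm_apply_apply _)
      map_mul' := fun a b => Subtype.ext (map_mul e.symm _ _) }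
  exact h.congr ε

/-- **Classical groups of characteristic three.** -/
theorem classical_cases {X : Type u} [Group X] (hX : IsClassicalChar 3 X) (x : MulAut X) (hxx : x * x = 1)
    (hx1 : x ≠ 1) : CF.{u} (fun S _ => Nat.card S ≠ 5616) ↥(fixedSubgroup x) ∨
      (∃ (K : Type) (_ : Field K) (_ : Fintype K), Fintype.card K = 9 ∧
        Nonempty (X ≃* Matrix.ProjectiveSpecialLinearGroup (Fin 3) K)) ∨
      (∃ (K : Type) (_ : Field K) (_ : Fintype K), Fintype.card K = 3 ∧ Nonempty (X ≃* PSp 3 K)) ∨
      (∃ (K : Type) (_ : Field K) (_ : Fintype K) (n : ℕ) (e : X ≃* Matrix.ProjectiveSpecialLinearGroup (Fin n) K),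
        2 ≤ n ∧ LinEx n K (MulAut.congr e x)) := by
  have hr2 : (3 : ℕ) ≠ 2 := by norm_num
  rcases hX with h | h | h | h | h | h
  · obtain ⟨F, _, _, _, n, h1, h2, ⟨e⟩⟩ := h
    have h3 : MulAut.congr e x * MulAut.congr e x = 1 := by rw [← map_mul, hxx, map_one]
    have h4 : MulAut.congr e x ≠ 1 := fun h => hx1 (by
      have : MulAut.congr e x = MulAut.congr e 1 := by rw [h, map_one]
      exact (MulAut.congr e).injective this)
    rcases cf_psl Nat.prime_three hr2 base3 h1 _ h3 h4 with h | ⟨rfl, h⟩ | h
    · exact Or.inl (fix_congr e x h)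
    · exact Or.inr (Or.inl ⟨F, inferInstance, inferInstance, by rw [← Nat.card_eq_fintype_card, h], ⟨e⟩⟩)
    · exact Or.inr (Or.inr (Or.inr ⟨F, inferInstance, inferInstance, n, e, h1, h⟩))
  · obtain ⟨F, _, _, _, m, h1, h2, ⟨e⟩⟩ := h
    rcases cf_psp (r := 3) (P := fun (S : Type u) _ => Nat.card S ≠ 5616) (F := F) Nat.prime_three hr2 base3 h1 with
      h | ⟨h, rfl⟩
    · exact Or.inl ((h.congr e.symm) x hxx)
    · exact Or.inr (Or.inr (Or.inl ⟨F, inferInstance, inferInstance, by rw [← Nat.card_eq_fintype_card, h], ⟨e⟩⟩))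
  · obtain ⟨F, _, _, _, n, q, h1, h2, h3, ⟨e⟩⟩ := h
    left
    exact (InvCF.congr (P := fun (S : Type u) _ => Nat.card S ≠ 5616)
      (fun α h => cf_psu Nat.prime_three hr2 base3 h1 h2 h3 α h) e.symm) x hxx
  · obtain ⟨F, _, _, _, m, h1, h2, ⟨e⟩⟩ := h
    exact Or.inl (((cf_odd Nat.prime_three hr2 base3 h1).congr e.symm) x hxx)
  · obtain ⟨F, _, _, _, m, h1, ⟨e⟩⟩ := h
    exact Or.inl (((cf_plus Nat.prime_three hr2 base3 h1).congr e.symm) x hxx)
  · obtain ⟨F, _, _, _, m, a, b, h1, h2, ⟨e⟩⟩ := h
    exact Or.inl (((cf_minus Nat.prime_three hr2 base3 h1 h2).congr e.symm) x hxx)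

end Cfsg.Agent.H974
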